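import Mathlib
import Cfsg.Prelude.Def_Transfer
import Cfsg.Agent.S0093
import Cfsg.Agent.S0121
import Cfsg.Agent.S0012
import Cfsg.Agent.S1898

set_option autoImplicit false

/-! S3117 farm: pieces D (step_critical), E (step_omega). -/

namespace Cfsg.Agent.Lib.Helper34.TI

open scoped commutatorElement

theorem step_omega {H : Type*} [Group H] [Finite H] (hH : IsPGroup 2 H)
    (hcen : commutator H ≤ Subgroup.center H) (hel : Cfsg.IsElementaryAbelian 2 (commutator H))
    (hchar : ∀ (Y : Subgroup H) [Y.Characteristic],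
      (∀ φ : MulAut H, (∀ y ∈ Y, φ y = y) → ∃ k : ℕ, φ ^ (2 ^ k) = 1) →
      Group.IsSolvable (MulAut Y) → Group.IsSolvable (MulAut H))
    (hnext : ∀ E : Subgroup H, (∀ x : E, x ^ 4 = 1) → Group.IsSolvable (MulAut E)) :
    Group.IsSolvable (MulAut H) := by
  obtain ⟨h1, h2⟩ := Cfsg.Agent.S1898.result hH hel hcen
  haveI : (Subgroup.closure {g : H | g ^ 4 = 1}).Characteristic := by
    rw [Subgroup.characteristic_iff_map_le]
    intro φ
    rw [MonoidHom.map_closure, Subgroup.closure_le]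
    rintro _ ⟨g, hg, rfl⟩
    apply Subgroup.subset_closure
    show (φ g) ^ 4 = 1
    have hg' : g ^ 4 = 1 := hg
    rw [← map_pow, hg', map_one]
  exact hchar (Subgroup.closure {g : H | g ^ 4 = 1})
    (fun φ hφ => h2 φ (fun g hg => hφ g (Subgroup.subset_closure hg)))
    (hnext _ (fun x => Subtype.ext (h1 x.1 x.2)))

theorem step_critical {X : Type*} [Group X] [Finite X] (hX : IsPGroup 2 X)
    (hchar : ∀ (Y : Subgroup X) [Y.Characteristic],
      (∀ φ : MulAut X, (∀ y ∈ Y, φ y = y) → ∃ k : ℕ, φ ^ (2 ^ k) = 1) →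
      Group.IsSolvable (MulAut Y) → Group.IsSolvable (MulAut X))
    (hnext : ∀ H : Subgroup X, commutator H ≤ Subgroup.center H →
      Cfsg.IsElementaryAbelian 2 (commutator H) → Group.IsSolvable (MulAut H)) :
    Group.IsSolvable (MulAut X) := by
  haveI : Fact (Nat.Prime 2) := ⟨Nat.prime_two⟩
  obtain ⟨H, hHc, h1, h2, h3⟩ := Cfsg.Agent.S0093.result hX
  haveI := hHc
  obtain ⟨f1, f2⟩ := Cfsg.Agent.S0012.result 2 (hX.to_subgroup H)
  have hfc : frattini H ≤ Subgroup.center H := by
    intro y hy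
    rw [Subgroup.mem_center_iff]
    intro g
    have hy' : (y : X) ∈ Subgroup.centralizer (H : Set X) := h1 ⟨y, hy, rfl⟩
    rw [Subgroup.mem_centralizer_iff] at hy'
    exact Subtype.ext (hy' g g.2)
  have hcen : commutator H ≤ Subgroup.center H := f1.trans hfc
  refine hchar H ?_ (hnext H hcen ⟨⟨⟨fun a b => ?_⟩⟩, ?_⟩)
  · intro φ hφ
    have ho : orderOf φ ≠ 0 := (orderOf_pos φ).ne'
    obtain ⟨k, m, hm, hkm⟩ := Nat.exists_eq_two_pow_mul_odd ho
    refine ⟨k, ?_⟩
    apply Cfsg.Agent.S0121.result hX H hHc h1 h2 h3 (φ ^ (2 ^ k))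
    · rw [orderOf_pow_of_dvd (by positivity) (by rw [hkm]; exact dvd_mul_right _ _), hkm,
        Nat.mul_div_cancel_left _ (by positivity)]
      exact hm.coprime_two_right
    · intro x hx
      generalize 2 ^ k = n
      induction n with
      | zero => simp
      | succ n ih => rw [pow_succ, MulAut.mul_apply, hφ x hx, ih]
  · have := Subgroup.mem_center_iff.mp (hcen a.2) b.1
    exact Subtype.ext this.symm
  · intro a ha
    rw [commutator_eq_closure] at ha
    have key : a ∈ Subgroup.center H ∧ a ^ 2 = 1 := by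
      induction ha using Subgroup.closure_induction with
      | mem c hc =>
        obtain ⟨x, y, rfl⟩ := hc
        have hcc : ⁅x, y⁆ ∈ Subgroup.center H :=
          hcen (Subgroup.commutator_mem_commutator (Subgroup.mem_top x) (Subgroup.mem_top y))
        refine ⟨hcc, ?_⟩
        have hx2 : x ^ 2 ∈ Subgroup.center H := hfc (f2 x)
        have e1 : x ^ 2 * y * (x ^ 2)⁻¹ * y⁻¹ = 1 := by
          rw [← Subgroup.mem_center_iff.mp hx2 y]; group
        have e2 : x ^ 2 * y * (x ^ 2)⁻¹ * y⁻¹ = x * ⁅x, y⁆ * y * x⁻¹ * y⁻¹ := by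
          rw [commutatorElement_def, sq]; group
        rw [e2, Subgroup.mem_center_iff.mp hcc x] at e1
        rw [sq]
        nth_rewrite 2 [commutatorElement_def]
        rw [← e1]; group
      | one => exact ⟨Subgroup.one_mem _, one_pow 2⟩
      | mul c d _ _ hc hd =>
        refine ⟨Subgroup.mul_mem _ hc.1 hd.1, ?_⟩
        rw [sq, mul_assoc, ← mul_assoc d c d, Subgroup.mem_center_iff.mp hc.1 d, mul_assoc,
          ← sq d, hd.2, mul_one, ← sq, hc.2]
      | inv c _ hc => exact ⟨Subgroup.inv_mem _ hc.1, by rw [inv_pow, hc.2, inv_one]⟩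
    exact key.2

end Cfsg.Agent.Lib.Helper34.TI
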