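import Mathlib
import Cfsg.Agent.Lib.Helper34.TI.Defs
import Cfsg.Agent.Lib.Helper34.TI.Small
import Cfsg.Agent.Lib.Helper34.TI.Num
import Cfsg.Agent.Lib.Helper34.TI.Count
import Cfsg.Agent.Lib.Helper34.TI.Gauss
import Cfsg.Agent.Lib.Helper34.TI.GaussApply
import Cfsg.Agent.Lib.Helper34.TI.Central
import Cfsg.Agent.Lib.Helper34.TI.Steps
import Cfsg.Agent.S0144

/-! S3117: assembly.  The automorphism group of a finite 2-group with at most three involutions is solvable. -/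

set_option autoImplicit false

namespace Cfsg.Agent.Lib.Helper34.TI


variable {E : Type*} [Group E] [Finite E]

lemma hfour_of_few (hF : Few E) : ∀ a b c d : E, a ^ 2 = 1 → b ^ 2 = 1 → c ^ 2 = 1 → d ^ 2 = 1 →
    a ≠ 1 → b ≠ 1 → c ≠ 1 → d ≠ 1 → a ≠ b → a ≠ c → a ≠ d → b ≠ c → b ≠ d → c ≠ d → False := by
  intro a b c d ha hb hc hd ha1 hb1 hc1 hd1
  exact Few.four hF a b c d (orderOf_eq_prime ha ha1) (orderOf_eq_prime hb hb1)
    (orderOf_eq_prime hc hc1) (orderOf_eq_prime hd hd1)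

lemma isP (h4 : ∀ x : E, x ^ 4 = 1) : IsPGroup 2 E := fun x => ⟨2, by simpa using h4 x⟩

/-- cardinality of a subgroup -/
lemma card_sub (h4 : ∀ x : E, x ^ 4 = 1) {m : ℕ} (hm : Nat.card E = 2 ^ m) (S : Subgroup E) :
    ∃ r, r ≤ m ∧ Nat.card S = 2 ^ r := by
  obtain ⟨r, hr⟩ := IsPGroup.iff_card.mp ((isP h4).to_subgroup S)
  refine ⟨r, ?_, hr⟩
  have h := Subgroup.card_le_card_group S
  rw [hr, hm] at h
  exact (Nat.pow_le_pow_iff_right (by norm_num)).mp h

/-- the subgroup `{1, v}`. -/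
def pairSub (v : E) (hv : v ^ 2 = 1) : Subgroup E where
  carrier := {x | x = 1 ∨ x = v}
  one_mem' := Or.inl rfl
  mul_mem' := by
    rintro a b (rfl | rfl) (rfl | rfl)
    · left; simp
    · right; simp
    · right; simp
    · left; rw [← sq]; exact hv
  inv_mem' := by
    rintro a (rfl | rfl)
    · left; simp
    · right; exact inv_eq_of_mul_eq_one_left (by rw [← sq]; exact hv)

lemma V4.perm12 {v₁ v₂ v₃ : E} (h : V4 E v₁ v₂ v₃) : V4 E v₂ v₁ v₃ :=
  ⟨h.ne2, h.ne1, h.ne3, h.ne12.symm, h.ne23, h.ne13, h.sq2, h.sq1, h.sq3, fun x hx => by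
    rcases h.all x hx with h | h | h | h <;> simp [h]⟩

lemma V4.perm13 {v₁ v₂ v₃ : E} (h : V4 E v₁ v₂ v₃) : V4 E v₃ v₂ v₁ :=
  ⟨h.ne3, h.ne2, h.ne1, h.ne23.symm, h.ne13.symm, h.ne12.symm, h.sq3, h.sq2, h.sq1, fun x hx => by
    rcases h.all x hx with h | h | h | h <;> simp [h]⟩

lemma four_le_card (h4 : ∀ x : E, x ^ 4 = 1) {v₁ v₂ v₃ : E} (hV : V4 E v₁ v₂ v₃) (S : Subgroup E)
    (hS : ∀ x : E, x ^ 2 = 1 → x ∈ S) : 4 ≤ Nat.card S := by
  rw [← card_sq_one hV (fun x => x ∈ S) hS]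
  exact Nat.card_le_card_of_injective (fun x : {x : E // x ∈ S ∧ x ^ 2 = 1} => (⟨x.1, x.2.1⟩ : S))
    (fun a b h => Subtype.ext (congrArg (fun y : S => (y : E)) h))

lemma gauss_v1 (h4 : ∀ x : E, x ^ 4 = 1) (hc : ∀ x : E, x ^ 2 = 1 → ∀ y : E, x * y = y * x)
    {v₁ v₂ v₃ : E} (hV : V4 E v₁ v₂ v₃) {m : ℕ} (hm : Nat.card E = 2 ^ m) :
    ∃ r, (2 ≤ r ∧ r ≤ m) ∧
      ((2 * ((4 + Nat.card {x : E // x ^ 2 = v₁} : ℕ) : ℤ) - 2 ^ m) ^ 2 = 0 ∨
       (2 * ((4 + Nat.card {x : E // x ^ 2 = v₁} : ℕ) : ℤ) - 2 ^ m) ^ 2 = 2 ^ m * 2 ^ r) := by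
  obtain ⟨R, hR, hG⟩ := gauss_apply h4 hc (fun f β => gauss_sq f β) (pairSub v₁ hV.sq1)
    (by rintro x (rfl | rfl); simp; exact hV.sq1)
    (by
      intro u w hu hw hu1 hw1
      have hu' : u = v₂ ∨ u = v₃ := by
        rcases hV.all u hu with h | h | h | h
        · exact absurd (Or.inl h) hu1
        · exact absurd (Or.inr h) hu1
        · exact Or.inl h
        · exact Or.inr h
      have hw' : w = v₂ ∨ w = v₃ := by
        rcases hV.all w hw with h | h | h | h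
        · exact absurd (Or.inl h) hw1
        · exact absurd (Or.inr h) hw1
        · exact Or.inl h
        · exact Or.inr h
      have hsq : (u * w) ^ 2 = 1 := by
        rw [sq, mul_assoc, ← mul_assoc w u w, ← hc u hu w, mul_assoc, ← sq w, hw, mul_one, ← sq, hu]
      rcases hV.all _ hsq with h | h | h | h
      · exact Or.inl h
      · exact Or.inr h
      · exfalso
        rcases hu' with rfl | rfl <;> rcases hw' with rfl | rfl
        · rw [← sq, hu] at h; exact hV.ne2 h.symm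
        · exact hV.ne3 (by simpa using h)
        · exact hV.ne3 (by simpa using h)
        · rw [← sq, hu] at h; exact hV.ne2 h.symm
      · exfalso
        rcases hu' with rfl | rfl <;> rcases hw' with rfl | rfl
        · rw [← sq, hu] at h; exact hV.ne3 h.symm
        · exact hV.ne2 (by simpa using h)
        · exact hV.ne2 (by simpa using h)
        · rw [← sq, hu] at h; exact hV.ne3 h.symm)
  obtain ⟨r, hrm, hr⟩ := card_sub h4 hm R
  have h4R := four_le_card h4 hV R hR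
  have hr2 : 2 ≤ r := by
    rw [hr] at h4R
    by_contra hlt
    have : r ≤ 1 := by omega
    have := Nat.pow_le_pow_right (n := 2) (by norm_num) this
    omega
  have hcount : Nat.card {x : E // x ^ 2 ∈ pairSub v₁ hV.sq1} =
      4 + Nat.card {x : E // x ^ 2 = v₁} := by
    rw [card_split h4 hV (fun x => x ^ 2 ∈ pairSub v₁ hV.sq1),
      card_sq_one hV (fun x => x ^ 2 ∈ pairSub v₁ hV.sq1) (fun x hx => Or.inl hx)]
    have e1 : Nat.card {x : E // x ^ 2 ∈ pairSub v₁ hV.sq1 ∧ x ^ 2 = v₁} =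
        Nat.card {x : E // x ^ 2 = v₁} :=
      Nat.card_congr (Equiv.subtypeEquivRight (fun x => ⟨fun h => h.2, fun h => ⟨Or.inr h, h⟩⟩))
    have e2 : Nat.card {x : E // x ^ 2 ∈ pairSub v₁ hV.sq1 ∧ x ^ 2 = v₂} = 0 := by
      haveI : IsEmpty {x : E // x ^ 2 ∈ pairSub v₁ hV.sq1 ∧ x ^ 2 = v₂} := ⟨fun x => by
        obtain ⟨x, h1, h2⟩ := x
        rw [h2] at h1
        rcases h1 with h | h
        · exact hV.ne2 h
        · exact hV.ne12 h.symm⟩
      exact Nat.card_of_isEmpty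
    have e3 : Nat.card {x : E // x ^ 2 ∈ pairSub v₁ hV.sq1 ∧ x ^ 2 = v₃} = 0 := by
      haveI : IsEmpty {x : E // x ^ 2 ∈ pairSub v₁ hV.sq1 ∧ x ^ 2 = v₃} := ⟨fun x => by
        obtain ⟨x, h1, h2⟩ := x
        rw [h2] at h1
        rcases h1 with h | h
        · exact hV.ne3 h
        · exact hV.ne13 h.symm⟩
      exact Nat.card_of_isEmpty
    rw [e1, e2, e3, add_zero, add_zero]
  refine ⟨r, ⟨hr2, hrm⟩, ?_⟩
  rw [hcount, hm, hr] at hG
  push_cast at hG ⊢
  exact hG

theorem v4_data (h4 : ∀ x : E, x ^ 4 = 1) (hc : ∀ x : E, x ^ 2 = 1 → ∀ y : E, x * y = y * x)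
    {v₁ v₂ v₃ : E} (hV : V4 E v₁ v₂ v₃) :
    ∃ m, Nat.card E = 2 ^ m ∧ m ≤ 6 ∧
      Nat.card {x : E // x ^ 2 = v₁} + Nat.card {x : E // x ^ 2 = v₂} +
        Nat.card {x : E // x ^ 2 = v₃} + 4 = 2 ^ m ∧
      (m = 6 → ∀ s ∈ [Nat.card {x : E // x ^ 2 = v₁}, Nat.card {x : E // x ^ 2 = v₂},
        Nat.card {x : E // x ^ 2 = v₃}], s ∈ [12, 20, 28, 36, 44, 60]) ∧
      (m = 5 → ∀ s ∈ [Nat.card {x : E // x ^ 2 = v₁}, Nat.card {x : E // x ^ 2 = v₂},
        Nat.card {x : E // x ^ 2 = v₃}], s ∈ [4, 12, 20, 28]) := by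
  obtain ⟨m, hm⟩ := IsPGroup.iff_card.mp (isP h4)
  obtain ⟨r₁, h1, g1⟩ := gauss_v1 h4 hc hV hm
  obtain ⟨r₂, h2, g2⟩ := gauss_v1 h4 hc hV.perm12 hm
  obtain ⟨r₃, h3, g3⟩ := gauss_v1 h4 hc hV.perm13 hm
  have hs : Nat.card {x : E // x ^ 2 = v₁} + Nat.card {x : E // x ^ 2 = v₂} +
        Nat.card {x : E // x ^ 2 = v₃} + 4 = 2 ^ m := by
    have h := card_split h4 hV (fun _ => True)
    rw [card_sq_one hV (fun _ => True) (fun _ _ => trivial)] at h
    have e0 : Nat.card {x : E // True} = Nat.card E := Nat.card_congr (Equiv.subtypeUnivEquiv (fun _ => trivial))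
    have e : ∀ v : E, Nat.card {x : E // True ∧ x ^ 2 = v} = Nat.card {x : E // x ^ 2 = v} := fun v =>
      Nat.card_congr (Equiv.subtypeEquivRight (fun x => by simp))
    rw [e0, e, e, e, hm] at h
    omega
  obtain ⟨hm6, l6, l5⟩ := num_v4 m _ _ _ r₁ r₂ r₃ hs h1 h2 h3 g1 g2 g3
  exact ⟨m, hm, hm6, hs, l6, l5⟩

/-- fixed points of an automorphism -/
def fixSub (φ : MulAut E) : Subgroup E where
  carrier := {x | φ x = x}
  one_mem' := map_one φ
  mul_mem' := fun {a b} ha hb => by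
    show φ (a * b) = a * b
    rw [map_mul, ha, hb]
  inv_mem' := fun {a} ha => by
    show φ a⁻¹ = a⁻¹
    rw [map_inv, ha]

lemma modEq_fix (φ : MulAut E) (r : ℕ) (hr : r.Prime) (ho : orderOf φ = r) (P : E → Prop)
    (hP : ∀ x, P x → P (φ x)) :
    Nat.card {x : E // P x} ≡ Nat.card {x : E // φ x = x ∧ P x} [MOD r] := by
  have h := card_modEq_fixed (MulAut.toPerm E φ) r hr (by
    rw [← map_pow, ← ho, pow_orderOf_eq_one, map_one]) P hP
  have e : Nat.card {x : E // P x ∧ (MulAut.toPerm E φ) x = x} = Nat.card {x : E // φ x = x ∧ P x} :=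
    Nat.card_congr (Equiv.subtypeEquivRight (fun x => by
      constructor
      · rintro ⟨h1, h2⟩; exact ⟨h2, h1⟩
      · rintro ⟨h1, h2⟩; exact ⟨h2, h1⟩))
  rwa [e] at h

lemma card_fix_data (h4 : ∀ x : E, x ^ 4 = 1) {m : ℕ} (hm : Nat.card E = 2 ^ m) (φ : MulAut E)
    (r : ℕ) (hr : r.Prime) (ho : orderOf φ = r) :
    ∃ c, c < m ∧ Nat.card (fixSub φ) = 2 ^ c ∧ 2 ^ m ≡ 2 ^ c [MOD r] := by
  obtain ⟨c, hcm, hc⟩ := card_sub h4 hm (fixSub φ)
  have hne : fixSub φ ≠ ⊤ := by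
    intro htop
    have : φ = 1 := by
      ext x
      have : x ∈ fixSub φ := by rw [htop]; trivial
      exact this
    rw [this, orderOf_one] at ho
    exact hr.one_lt.ne ho
  have hlt : c < m := by
    rcases Nat.lt_or_ge c m with h | h
    · exact h
    · exfalso
      have : c = m := le_antisymm hcm h
      apply hne
      apply Subgroup.eq_top_of_card_eq
      rw [hc, hm, this]
  refine ⟨c, hlt, hc, ?_⟩
  have h := modEq_fix φ r hr ho (fun _ => True) (fun _ _ => trivial)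
  have e0 : Nat.card {x : E // True} = Nat.card E := Nat.card_congr (Equiv.subtypeUnivEquiv (fun _ => trivial))
  have e1 : Nat.card {x : E // φ x = x ∧ True} = Nat.card (fixSub φ) :=
    Nat.card_congr (Equiv.subtypeEquivRight (fun x => by simp [fixSub]))
  rw [e0, e1, hm, hc] at h
  exact h

lemma card_le_eight (h4 : ∀ x : E, x ^ 4 = 1) (hc : ∀ x : E, x ^ 2 = 1 → ∀ y : E, x * y = y * x)
    {z : E} (hz1 : z ≠ 1) (hz : z ^ 2 = 1) (hall : ∀ x : E, x ^ 2 = 1 → x = 1 ∨ x = z)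
    {m : ℕ} (hm : Nat.card E = 2 ^ m) : m ≤ 3 := by
  obtain ⟨R, hR, hG⟩ := gauss_apply h4 hc (fun f β => gauss_sq f β) ⊥
    (by intro x hx; rw [Subgroup.mem_bot] at hx; rw [hx]; simp)
    (by
      intro u w hu hw hu1 hw1
      rw [Subgroup.mem_bot] at hu1 hw1 ⊢
      have hu' := (hall u hu).resolve_left hu1
      have hw' := (hall w hw).resolve_left hw1
      rw [hu', hw', ← sq, hz])
  obtain ⟨r, hrm, hr⟩ := card_sub h4 hm R
  have hr1 : 1 ≤ r := by
    by_contra hlt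
    have h0 : r = 0 := by omega
    rw [h0, pow_zero] at hr
    have := (Subgroup.card_eq_one.mp hr)
    have hzR := hR z hz
    rw [this, Subgroup.mem_bot] at hzR
    exact hz1 hzR
  have hcount : Nat.card {x : E // x ^ 2 ∈ (⊥ : Subgroup E)} = 2 := by
    have e : {x : E // x ^ 2 ∈ (⊥ : Subgroup E)} ≃ Bool :=
      { toFun := fun x => by classical exact decide (x.1 = z)
        invFun := fun b => if b then ⟨z, by rw [hz]; exact Subgroup.one_mem _⟩ else ⟨1, by simp⟩
        left_inv := by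
          classical
          rintro ⟨x, hx⟩
          rw [Subgroup.mem_bot] at hx
          rcases hall x hx with rfl | rfl
          · simp [hz1.symm]
          · simp
        right_inv := by
          classical
          intro b
          cases b
          · simp [hz1.symm]
          · simp }
    rw [Nat.card_congr e]
    simp
  rw [hcount, hm, hr] at hG
  push_cast at hG
  exact num_v2 m r ⟨hr1, hrm⟩ hG

theorem order_cases (h4 : ∀ x : E, x ^ 4 = 1) (hF : Few E) (φ : MulAut E) (hφ : φ ∈ fixK E)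
    (r : ℕ) (hr : r.Prime) (hr2 : r ≠ 2) (ho : orderOf φ = r) : r = 3 ∨ (r = 5 ∧ Big E) := by
  have hfour := hfour_of_few hF
  have hc := central_of_few h4 hfour
  rcases v_cases h4 hc hfour with h1 | ⟨z, hz1, hz, hall⟩ | ⟨v₁, v₂, v₃, hV⟩
  · exfalso
    have : φ = 1 := by
      ext x
      rw [h1 x]; simp
    rw [this, orderOf_one] at ho
    exact hr.one_lt.ne ho
  · left
    obtain ⟨m, hm⟩ := IsPGroup.iff_card.mp (isP h4)
    have hm3 := card_le_eight h4 hc hz1 hz hall hm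
    obtain ⟨c, hcm, hcc, hmod⟩ := card_fix_data h4 hm φ r hr ho
    have hc1 : 1 ≤ c := by
      by_contra hlt
      have h0 : c = 0 := by omega
      rw [h0, pow_zero] at hcc
      have := (Subgroup.card_eq_one.mp hcc)
      have hzR : z ∈ fixSub φ := hφ z hz
      rw [this, Subgroup.mem_bot] at hzR
      exact hz1 hzR
    exact num_small m c r hr hr2 hc1 hcm hm3 hmod
  · obtain ⟨m, hm, hm6, hs, l6, l5⟩ := v4_data h4 hc hV
    obtain ⟨c, hcm, hcc, hmod⟩ := card_fix_data h4 hm φ r hr ho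
    have hfixV : ∀ x : E, x ^ 2 = 1 → x ∈ fixSub φ := fun x hx => hφ x hx
    have hc2 : 2 ≤ c := by
      have h4R := four_le_card h4 hV (fixSub φ) hfixV
      rw [hcc] at h4R
      by_contra hlt
      have : c ≤ 1 := by omega
      have := Nat.pow_le_pow_right (n := 2) (by norm_num) this
      omega
    have ht : Nat.card {x : E // φ x = x ∧ x ^ 2 = v₁} + Nat.card {x : E // φ x = x ∧ x ^ 2 = v₂} +
        Nat.card {x : E // φ x = x ∧ x ^ 2 = v₃} + 4 = 2 ^ c := by
      have h := card_split h4 hV (fun x => φ x = x)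
      rw [card_sq_one hV (fun x => φ x = x) (fun x hx => hφ x hx)] at h
      have e0 : Nat.card {x : E // φ x = x} = Nat.card (fixSub φ) := rfl
      rw [e0, hcc] at h
      omega
    have hinv : ∀ v : E, v ^ 2 = 1 → ∀ x : E, x ^ 2 = v → (φ x) ^ 2 = v := by
      intro v hv x hx
      rw [← map_pow, hx, hφ v hv]
    rcases num_prime m c r _ _ _ _ _ _ hr hr2 hc2 hcm hm6 hs ht hmod
      (modEq_fix φ r hr ho _ (hinv v₁ hV.sq1)) (modEq_fix φ r hr ho _ (hinv v₂ hV.sq2))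
      (modEq_fix φ r hr ho _ (hinv v₃ hV.sq3)) l6 l5 with h | ⟨h5, hm6', s1, s2, s3⟩
    · exact Or.inl h
    · right
      refine ⟨h5, by rw [hm, hm6']; norm_num, ?_⟩
      intro v hv hv1
      rcases hV.all v hv with h | h | h | h
      · exact absurd h hv1
      · rw [h]; exact s1
      · rw [h]; exact s2
      · rw [h]; exact s3

/-- the subgroup of elements of square one. -/
def omSub (hc : ∀ x : E, x ^ 2 = 1 → ∀ y : E, x * y = y * x) : Subgroup E where
  carrier := {x | x ^ 2 = 1}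
  one_mem' := by simp
  mul_mem' := fun {a b} ha hb => by
    show (a * b) ^ 2 = 1
    have ha' : a ^ 2 = 1 := ha
    have hb' : b ^ 2 = 1 := hb
    rw [sq, mul_assoc, ← mul_assoc b a b, ← hc a ha b, mul_assoc, ← sq b, hb', mul_one, ← sq, ha']
  inv_mem' := fun {a} ha => by
    show (a⁻¹) ^ 2 = 1
    have ha' : a ^ 2 = 1 := ha
    rw [inv_pow, ha', inv_one]

theorem no_three_of_big (h4 : ∀ x : E, x ^ 4 = 1) (hF : Few E) (hB : Big E) (φ : MulAut E)
    (hφ : φ ∈ fixK E) (ho : orderOf φ = 3) : False := by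
  have hfour := hfour_of_few hF
  have hc := central_of_few h4 hfour
  have hm : Nat.card E = 2 ^ 6 := by rw [hB.1]; norm_num
  rcases v_cases h4 hc hfour with h1 | ⟨z, hz1, hz, hall⟩ | ⟨v₁, v₂, v₃, hV⟩
  · have : Subsingleton E := ⟨fun a b => by rw [h1 a, h1 b]⟩
    have := Nat.card_of_subsingleton (1 : E)
    omega
  · have := card_le_eight h4 hc hz1 hz hall hm
    omega
  · obtain ⟨c, hcm, hcc, hmod⟩ := card_fix_data h4 hm φ 3 Nat.prime_three ho
    have ht : Nat.card {x : E // φ x = x ∧ x ^ 2 = v₁} + Nat.card {x : E // φ x = x ∧ x ^ 2 = v₂} +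
        Nat.card {x : E // φ x = x ∧ x ^ 2 = v₃} + 4 = 2 ^ c := by
      have h := card_split h4 hV (fun x => φ x = x)
      rw [card_sq_one hV (fun x => φ x = x) (fun x hx => hφ x hx)] at h
      have e0 : Nat.card {x : E // φ x = x} = Nat.card (fixSub φ) := rfl
      rw [e0, hcc] at h
      omega
    have hinv : ∀ v : E, v ^ 2 = 1 → ∀ x : E, x ^ 2 = v → (φ x) ^ 2 = v := by
      intro v hv x hx
      rw [← map_pow, hx, hφ v hv]
    have hcardV : Nat.card (omSub hc) = 4 := by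
      rw [← card_sq_one hV (fun _ => True) (fun _ _ => trivial)]
      exact Nat.card_congr (Equiv.subtypeEquivRight (fun x => by simp [omSub]))
    have hdvd : ∀ v : E, 4 ∣ Nat.card {x : E // φ x = x ∧ x ^ 2 = v} := by
      intro v
      rw [← hcardV]
      apply card_dvd_of_stable
      rintro x ⟨hx1, hx2⟩ w hw
      have hw' : w ^ 2 = 1 := hw
      refine ⟨by rw [map_mul, hx1, hφ w hw'], ?_⟩
      rw [sq, mul_assoc, ← mul_assoc w x w, hc w hw' x, mul_assoc, ← sq w, hw', mul_one, ← sq, hx2]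
    have e : ∀ v : E, v ^ 2 = 1 → v ≠ 1 → 20 ≡ Nat.card {x : E // φ x = x ∧ x ^ 2 = v} [MOD 3] := by
      intro v hv hv1
      have := modEq_fix φ 3 Nat.prime_three ho _ (hinv v hv)
      rwa [hB.2 v hv hv1] at this
    exact num_three c _ _ _ hcm ht (by simpa using hmod) (e v₁ hV.sq1 hV.ne1) (e v₂ hV.sq2 hV.ne2)
      (e v₃ hV.sq3 hV.ne3) (hdvd v₁) (hdvd v₂) (hdvd v₃)

theorem card_fixK (h4 : ∀ x : E, x ^ 4 = 1) (hF : Few E) :
    ∃ q : ℕ, q.Prime ∧ ∃ a b : ℕ, Nat.card (fixK E) = 2 ^ a * q ^ b := by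
  have hel : ∀ r : ℕ, r.Prime → r ∣ Nat.card (fixK E) → ∃ φ ∈ fixK E, orderOf φ = r := by
    intro r hr hdvd
    haveI := Fact.mk hr
    obtain ⟨k, hk⟩ := exists_prime_orderOf_dvd_card' r hdvd
    exact ⟨k.1, k.2, by rw [Subgroup.orderOf_coe]; exact hk⟩
  by_cases h5 : ∃ φ ∈ fixK E, orderOf φ = 5
  · obtain ⟨φ₅, hφ₅, ho₅⟩ := h5
    have hB : Big E := by
      rcases order_cases h4 hF φ₅ hφ₅ 5 (by norm_num) (by norm_num) ho₅ with h | h
      · omega
      · exact h.2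
    refine ⟨5, by norm_num, eq_two_pow_mul_pow _ 5 Nat.card_pos.ne' (by norm_num) (by norm_num) ?_⟩
    intro r hr hdvd
    obtain ⟨φ, hφ, ho⟩ := hel r hr hdvd
    by_cases hr2 : r = 2
    · exact Or.inl hr2
    · rcases order_cases h4 hF φ hφ r hr hr2 ho with h | h
      · exact absurd (h ▸ ho) (fun h3 => no_three_of_big h4 hF hB φ hφ h3)
      · exact Or.inr h.1
  · refine ⟨3, by norm_num, eq_two_pow_mul_pow _ 3 Nat.card_pos.ne' (by norm_num) (by norm_num) ?_⟩
    intro r hr hdvd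
    obtain ⟨φ, hφ, ho⟩ := hel r hr hdvd
    by_cases hr2 : r = 2
    · exact Or.inl hr2
    · rcases order_cases h4 hF φ hφ r hr hr2 ho with h | h
      · exact Or.inr h
      · exact absurd ⟨φ, hφ, h.1 ▸ ho⟩ h5

lemma card_sq_le (hF : Few E) : Nat.card {x : E // x ^ 2 = 1} ≤ 4 := by
  classical
  have hinj : Function.Injective (fun x : {x : E // x ^ 2 = 1} =>
      if h : x.1 = 1 then (none : Option {x : E // orderOf x = 2})
      else some ⟨x.1, orderOf_eq_prime x.2 h⟩) := by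
    rintro ⟨a, ha⟩ ⟨b, hb⟩ h
    by_cases ha1 : a = 1 <;> by_cases hb1 : b = 1
    · exact Subtype.ext (ha1.trans hb1.symm)
    · simp [ha1, hb1] at h
    · simp [ha1, hb1] at h
    · simp only [ha1, hb1, dite_false, Option.some.injEq, Subtype.mk.injEq] at h
      exact Subtype.ext h
  have h := Nat.card_le_card_of_injective _ hinj
  rw [Finite.card_option] at h
  unfold Few at hF
  omega

theorem core (h4 : ∀ x : E, x ^ 4 = 1) (hF : Few E) : Group.IsSolvable (MulAut E) := by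
  apply solvable_of_fixK (card_sq_le hF)
  obtain ⟨q, hq, a, b, hcard⟩ := card_fixK h4 hF
  exact Cfsg.Agent.S0144.result 2 q a b Nat.prime_two hq hcard

theorem main {X : Type*} [Group X] [Finite X] (h2 : IsPGroup 2 X) (hF : Few X) :
    Group.IsSolvable (MulAut X) :=
  step_critical h2 (fun Y _ => solvable_of_char Y) (fun H hcen hel =>
    step_omega (h2.to_subgroup H) hcen hel (fun Y _ => solvable_of_char Y)
      (fun E h4 => core h4 (Few.sub (Few.sub hF H) E)))

end Cfsg.Agent.Lib.Helper34.TI
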